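import Mathlib
import Cfsg.Agent.Lib.Helper22.Iso.Defs
import Cfsg.Agent.Lib.Helper22.Comp
import Cfsg.Agent.Lib.Helper22.Layer
import Cfsg.Agent.Lib.Helper22.Fstar
import Cfsg.Agent.Lib.Helper30.Bender

/-!
# Project ISO: package ABS-A1 (`X` not nilpotent ⟹ `E(X) = X`)
-/

set_option autoImplicit false

namespace Cfsg.Agent.Lib.Helper90.Iso

open Cfsg.Agent.Lib.Helper22.Iso

universe u

/-- A characteristic subgroup is invariant under every automorphism. -/
theorem char_invariant {X : Type*} [Group X] (N : Subgroup X) [hN : N.Characteristic]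
    (φ : MulAut X) {x : X} (hx : x ∈ N) : φ x ∈ N := by
  have h := Subgroup.characteristic_iff_le_comap.mp hN φ
  exact h hx

theorem pkgAbsA1 : PkgAbsA1.{u} := by
  intro X Γ _ _ _ _ p _ σ Sg Qg Lg Lb Tb hA hnil
  by_contra hlay
  have hlayN : (Cfsg.layer X).Normal := Cfsg.Agent.Lib.Helper22.layer_normal' X
  have hlayinv : ∀ l ∈ Lg, ∀ x ∈ Cfsg.layer X, σ l x ∈ Cfsg.layer X :=
    fun l _ x hx => char_invariant (Cfsg.layer X) (σ l) hx
  obtain ⟨hlc, -⟩ := hA.key _ hlayN hlayinv hlay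
  -- no components
  have hnocomp : ∀ K : Subgroup X, ¬ Cfsg.IsComponent K := by
    intro K hK
    have hKc : K ≤ Subgroup.center X := (Cfsg.Agent.Lib.Helper22.component_le_layer hK).trans hlc
    have hperf := Cfsg.Agent.Lib.Helper22.IsComponent.perfect hK
    have hbot : ⁅K, K⁆ = ⊥ := by
      rw [Subgroup.commutator_eq_bot_iff_le_centralizer]
      intro x hx
      rw [Subgroup.mem_centralizer_iff]
      intro y hy
      exact (Subgroup.mem_center_iff.mp (hKc hx) y)
    exact Cfsg.Agent.Lib.Helper22.IsComponent.ne_bot hK (hperf ▸ hbot)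
  have hlaybot : Cfsg.layer X = ⊥ := by
    rw [eq_bot_iff, Cfsg.Agent.Lib.Helper22.layer_le_iff]
    intro K hK
    exact absurd hK (hnocomp K)
  have hFN : (Cfsg.fittingSubgroup X).Normal := Cfsg.Agent.Lib.Helper22.fittingSubgroup_normal' X
  have hFinv : ∀ l ∈ Lg, ∀ x ∈ Cfsg.fittingSubgroup X, σ l x ∈ Cfsg.fittingSubgroup X :=
    fun l _ x hx => char_invariant (Cfsg.fittingSubgroup X) (σ l) hx
  have hFnil : Group.IsNilpotent (Cfsg.fittingSubgroup X) :=
    Cfsg.Agent.Lib.Helper22.fittingSubgroup_nilpotent X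
  have hFne : Cfsg.fittingSubgroup X ≠ ⊤ := by
    intro h
    apply hnil
    rw [h] at hFnil
    exact Group.nilpotent_of_mulEquiv (Subgroup.topEquiv (G := X))
  obtain ⟨hFc, -⟩ := hA.key _ hFN hFinv hFne
  have hFstar : Cfsg.generalizedFittingSubgroup X = Cfsg.fittingSubgroup X := by
    unfold Cfsg.generalizedFittingSubgroup
    rw [hlaybot, bot_sup_eq]
  have hB := Cfsg.Agent.Lib.Helper30.centralizer_generalizedFittingSubgroup_le X
  rw [hFstar] at hB
  have hCtop : Subgroup.centralizer (Cfsg.fittingSubgroup X : Set X) = ⊤ := by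
    rw [eq_top_iff]
    intro g _
    rw [Subgroup.mem_centralizer_iff]
    intro y hy
    exact (Subgroup.mem_center_iff.mp (hFc hy) g).symm
  rw [hCtop] at hB
  exact hFne (top_le_iff.mp hB)

end Cfsg.Agent.Lib.Helper90.Iso
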