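import Mathlib
import Cfsg.Agent.Lib.Helper22.Iso.Defs
import Cfsg.Agent.Lib.Helper22.Layer
import Cfsg.Agent.Lib.Helper29.Fstar
import Cfsg.Agent.Lib.Helper55.Cores
import Cfsg.Agent.Lib.Helper63.HallHigman

/-!
# Project ISO: package FSTAR-NIL (`Ȳ` nilpotent ⟹ `Y ≤` preimage of `F*(G / O_p(G))`)
-/

set_option autoImplicit false

namespace Cfsg.Agent.Lib.Helper90.Iso

open Cfsg.Agent.Lib.Helper22.Iso

universe u

/-- `O_p(Y) ≤ O_p(G)` for a normal subgroup `Y` of `G`. -/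
theorem opOf_le_pCore_of_normal {G : Type*} [Group G] (p : ℕ) [Fact p.Prime] (Y : Subgroup G)
    [Y.Normal] : (Cfsg.pCore p ↥Y).map Y.subtype ≤ Cfsg.pCore p G := by
  haveI : (Cfsg.pCore p ↥Y).Characteristic := Cfsg.Agent.Lib.Helper63.pCore_characteristic' p ↥Y
  have hN : ((Cfsg.pCore p ↥Y).map Y.subtype).Normal := ConjAct.normal_of_characteristic_of_normal
  have hp : IsPGroup p ((Cfsg.pCore p ↥Y).map Y.subtype) :=
    (Cfsg.Agent.Lib.Helper55.pCore_isPGroup p ↥Y).map Y.subtype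
  exact Cfsg.Agent.Lib.Helper55.le_pCore hN hp

theorem pkgFstarNil : PkgFstarNil.{u} := by
  intro G _ _ p _ Y _ _ _ hnil
  set π := QuotientGroup.mk' (Cfsg.pCore p G) with hπ
  rw [← Subgroup.map_le_iff_le_comap]
  have hYN : (Y.map π).Normal :=
    Subgroup.Normal.map inferInstance π (QuotientGroup.mk'_surjective _)
  -- the restriction of π to Y
  let φ : ↥Y →* ↥(Y.map π) := π.subgroupMap Y
  have hφs : Function.Surjective φ := π.subgroupMap_surjective Y
  have hker : ∀ y ∈ Cfsg.pCore p ↥Y, φ y = 1 := by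
    intro y hy
    apply Subtype.ext
    have h1 : (y : G) ∈ Cfsg.pCore p G :=
      opOf_le_pCore_of_normal p Y (Subgroup.mem_map_of_mem Y.subtype hy)
    show π (y : G) = 1
    rw [hπ, QuotientGroup.mk'_apply, QuotientGroup.eq_one_iff]
    exact h1
  let ψ : (↥Y ⧸ Cfsg.pCore p ↥Y) →* ↥(Y.map π) := QuotientGroup.lift (Cfsg.pCore p ↥Y) φ hker
  have hψs : Function.Surjective ψ := by
    intro z
    obtain ⟨y, rfl⟩ := hφs z
    exact ⟨QuotientGroup.mk y, rfl⟩
  have hnil2 : Group.IsNilpotent ↥(Y.map π) := Group.nilpotent_of_surjective ψ hψs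
  exact (Cfsg.Agent.Lib.Helper22.le_fittingSubgroup_of_nilpotent hYN hnil2).trans
    (Cfsg.Agent.Lib.Helper29.fittingSubgroup_le_generalizedFittingSubgroup _)

end Cfsg.Agent.Lib.Helper90.Iso
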